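import Cfsg.Agent.H800.IFx.Gen
import Cfsg.Agent.H999.IF.EngB
import Cfsg.Agent.TwoFusion.PSLTwoGood
import Cfsg.Agent.S0799

/-!
# S5719, `PSL(2, q)`: counting (helper800)

* `num_four`, `num_sub`, `num_two` : arithmetic;
* `card_cent_ge` : centralizers of involutions of `PSL(2, q)` have order at least `q - 1`;
* `exists_pgl`, `exists_psl`, `exists_dih` : involutions with small centralizers in the groups of Dickson's list.
-/

set_option autoImplicit false
set_option linter.unusedSectionVars false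

namespace Cfsg.Agent.H800.IFx

open Matrix Cfsg Cfsg.Agent.H209.Fxy

/-! ### Arithmetic -/

theorem num_four {r n : ℕ} (hn : 729 < n) (h1 : 6 * n ≤ r * (r + 1) * (r + 2)) (h2 : r ^ 6 < 4096 * n) : False := by
  have hr : 16 ≤ r := by
    by_contra hcon
    have h3 : r ≤ 15 := by omega
    have h4 : r * (r + 1) * (r + 2) ≤ 15 * 16 * 17 := by gcongr <;> omega
    omega
  have h3 : 6 * r ^ 6 < 4096 * (r * (r + 1) * (r + 2)) := by linarith
  have h4 : 6 * r ^ 5 < 4096 * ((r + 1) * (r + 2)) := by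
    have h5 : r * (6 * r ^ 5) < r * (4096 * ((r + 1) * (r + 2))) := by
      calc r * (6 * r ^ 5) = 6 * r ^ 6 := by ring
        _ < _ := h3
        _ = _ := by ring
    exact lt_of_mul_lt_mul_left h5 (Nat.zero_le r)
  have h5 : 16 ^ 3 * r ^ 2 ≤ r ^ 5 := by
    calc 16 ^ 3 * r ^ 2 ≤ r ^ 3 * r ^ 2 := by gcongr
      _ = r ^ 5 := by ring
  nlinarith

theorem num_two {r n : ℕ} (hr : 31 ≤ r) (h1 : 6 * n ≤ r * (r + 1) * (r + 2)) (h2 : r ^ 6 < 6 ^ 6 * n) : False := by
  have h3 : 6 * r ^ 6 < 6 ^ 6 * (r * (r + 1) * (r + 2)) := by linarith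
  have h4 : 6 * r ^ 5 < 6 ^ 6 * ((r + 1) * (r + 2)) := by
    have h5 : r * (6 * r ^ 5) < r * (6 ^ 6 * ((r + 1) * (r + 2))) := by
      calc r * (6 * r ^ 5) = 6 * r ^ 6 := by ring
        _ < _ := h3
        _ = _ := by ring
    exact lt_of_mul_lt_mul_left h5 (Nat.zero_le r)
  have h5 : 31 ^ 3 * r ^ 2 ≤ r ^ 5 := by
    calc 31 ^ 3 * r ^ 2 ≤ r ^ 3 * r ^ 2 := by gcongr
      _ = r ^ 5 := by ring
  nlinarith

/-- `a = d + 1`, `q = r + 1 ≥ a ^ 2` -/
theorem num_sub {r d n : ℕ} (hd : 2 ≤ d) (hn : 729 < n) (hr : d * (d + 2) ≤ r)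
    (h1 : n * (d * (d + 1) * (d + 2)) ≤ r * (r + 1) * (r + 2)) (h2 : r ^ 6 < (2 * (d + 2)) ^ 6 * n) : False := by
  have hpos : 0 < d * (d + 1) * (d + 2) := by positivity
  have h3 : r ^ 6 * (d * (d + 1) * (d + 2)) < (2 * (d + 2)) ^ 6 * (r * (r + 1) * (r + 2)) := by
    calc r ^ 6 * (d * (d + 1) * (d + 2)) < ((2 * (d + 2)) ^ 6 * n) * (d * (d + 1) * (d + 2)) :=
          Nat.mul_lt_mul_of_pos_right h2 hpos
      _ = (2 * (d + 2)) ^ 6 * (n * (d * (d + 1) * (d + 2))) := by ring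
      _ ≤ _ := Nat.mul_le_mul_left _ h1
  have h4 : r ^ 5 * (d * (d + 1)) < 64 * (d + 2) ^ 5 * ((r + 1) * (r + 2)) := by
    have h5 : (r * (d + 2)) * (r ^ 5 * (d * (d + 1))) < (r * (d + 2)) * (64 * (d + 2) ^ 5 * ((r + 1) * (r + 2))) := by
      calc (r * (d + 2)) * (r ^ 5 * (d * (d + 1))) = r ^ 6 * (d * (d + 1) * (d + 2)) := by ring
        _ < _ := h3
        _ = _ := by ring
    exact lt_of_mul_lt_mul_left h5 (Nat.zero_le _)
  have h6 : 730 * (d * (d + 1) * (d + 2)) ≤ r * (r + 1) * (r + 2) :=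
    (Nat.mul_le_mul_right _ (by omega)).trans h1
  rcases Nat.lt_or_ge d 5 with hd5 | hd5
  · have hd' : d = 2 ∨ d = 3 ∨ d = 4 := by omega
    rcases hd' with rfl | rfl | rfl
    · have hr' : 25 ≤ r := by
        by_contra hcon
        have h7 : r * (r + 1) * (r + 2) ≤ 24 * 25 * 26 := by gcongr <;> omega
        omega
      have h5 : 25 ^ 3 * r ^ 2 ≤ r ^ 5 := by
        calc 25 ^ 3 * r ^ 2 ≤ r ^ 3 * r ^ 2 := by gcongr
          _ = r ^ 5 := by ring
      norm_num at h4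
      nlinarith
    · have hr' : 35 ≤ r := by
        by_contra hcon
        have h7 : r * (r + 1) * (r + 2) ≤ 34 * 35 * 36 := by gcongr <;> omega
        omega
      have h5 : 35 ^ 3 * r ^ 2 ≤ r ^ 5 := by
        calc 35 ^ 3 * r ^ 2 ≤ r ^ 3 * r ^ 2 := by gcongr
          _ = r ^ 5 := by ring
      norm_num at h4
      nlinarith
    · have hr' : 44 ≤ r := by
        by_contra hcon
        have h7 : r * (r + 1) * (r + 2) ≤ 43 * 44 * 45 := by gcongr <;> omega
        omega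
      have h5 : 44 ^ 3 * r ^ 2 ≤ r ^ 5 := by
        calc 44 ^ 3 * r ^ 2 ≤ r ^ 3 * r ^ 2 := by gcongr
          _ = r ^ 5 := by ring
      norm_num at h4
      nlinarith
  · -- `d ≥ 5`
    have h7 : (d * (d + 2)) ^ 3 * r ^ 2 ≤ r ^ 5 := by
      calc (d * (d + 2)) ^ 3 * r ^ 2 ≤ r ^ 3 * r ^ 2 := by gcongr
        _ = r ^ 5 := by ring
    have h8 : r ^ 2 * (d ^ 4 * (d + 1)) < 64 * (d + 2) ^ 2 * ((r + 1) * (r + 2)) := by
      have h9 : (d + 2) ^ 3 * (r ^ 2 * (d ^ 4 * (d + 1))) < (d + 2) ^ 3 * (64 * (d + 2) ^ 2 * ((r + 1) * (r + 2))) := by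
        calc (d + 2) ^ 3 * (r ^ 2 * (d ^ 4 * (d + 1))) = ((d * (d + 2)) ^ 3 * r ^ 2) * (d * (d + 1)) := by ring
          _ ≤ r ^ 5 * (d * (d + 1)) := Nat.mul_le_mul_right _ h7
          _ < _ := h4
          _ = _ := by ring
      exact lt_of_mul_lt_mul_left h9 (Nat.zero_le _)
    have hr' : 35 ≤ r := by nlinarith
    have h9 : 1225 * ((r + 1) * (r + 2)) ≤ 1332 * r ^ 2 := by nlinarith
    have h10 : 25 * (d + 2) ^ 2 ≤ 49 * d ^ 2 := by nlinarith
    have h11 : r ^ 2 * (1225 * 25 * (d ^ 4 * (d + 1))) < r ^ 2 * (64 * 49 * 1332 * d ^ 2) := by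
      calc r ^ 2 * (1225 * 25 * (d ^ 4 * (d + 1))) = 1225 * 25 * (r ^ 2 * (d ^ 4 * (d + 1))) := by ring
        _ < 1225 * 25 * (64 * (d + 2) ^ 2 * ((r + 1) * (r + 2))) := Nat.mul_lt_mul_of_pos_left h8 (by norm_num)
        _ = 64 * (25 * (d + 2) ^ 2) * (1225 * ((r + 1) * (r + 2))) := by ring
        _ ≤ 64 * (49 * d ^ 2) * (1332 * r ^ 2) := by gcongr
        _ = _ := by ring
    have h12 : 1225 * 25 * (d ^ 4 * (d + 1)) < 64 * 49 * 1332 * d ^ 2 := lt_of_mul_lt_mul_left h11 (Nat.zero_le _)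
    have h13 : 5 ^ 2 * d ^ 2 * (5 + 1) ≤ d ^ 4 * (d + 1) := by
      calc 5 ^ 2 * d ^ 2 * (5 + 1) ≤ d ^ 2 * d ^ 2 * (d + 1) := by gcongr
        _ = _ := by ring
    have h14 : 0 < d ^ 2 := by positivity
    omega

/-! ### Centralizers -/

/-- the element `w` -/
def wS (K : Type*) [Field K] : SpecialLinearGroup (Fin 2) K := ⟨!![0, 1; -1, 0], by simp [det_fin_two]⟩

theorem coe_wS (K : Type*) [Field K] : (wS K : Matrix (Fin 2) (Fin 2) K) = !![0, 1; -1, 0] := rfl

section pgl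

variable (K : Type*) [Field K] [Fintype K]

/-- the class of `w` in `PGL(2, K)` -/
def wP : ProjGenLinGroup (Fin 2) K := ProjectiveSpecialLinearGroup.toPGL (QuotientGroup.mk (wS K))

variable {K}

theorem shape {g : GL (Fin 2) K} (hg : ProjGenLinGroup.mk g * wP K = wP K * ProjGenLinGroup.mk g) :
    ((g 0 0 : K), (g 0 1 : K)) ≠ 0 ∧ ((g 1 1 = g 0 0 ∧ g 1 0 = - g 0 1) ∨ (g 1 1 = - g 0 0 ∧ g 1 0 = g 0 1)) := by
  have h1 : (QuotientGroup.mk (g * SpecialLinearGroup.toGL (wS K)) : GL (Fin 2) K ⧸ Subgroup.center (GL (Fin 2) K)) =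
      QuotientGroup.mk (SpecialLinearGroup.toGL (wS K) * g) := hg
  rw [QuotientGroup.eq, GeneralLinearGroup.center_eq_range_scalar] at h1
  obtain ⟨c, hc⟩ := h1
  have h2 : g * SpecialLinearGroup.toGL (wS K) * GeneralLinearGroup.scalar (Fin 2) c =
      SpecialLinearGroup.toGL (wS K) * g := by
    rw [hc]; group
  have h3 : (g : Matrix (Fin 2) (Fin 2) K) * !![0, 1; -1, 0] * scalar (Fin 2) (c : K) =
      !![0, 1; -1, 0] * (g : Matrix (Fin 2) (Fin 2) K) := congrArg (fun x : GL (Fin 2) K => (x : Matrix (Fin 2) (Fin 2) K)) h2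
  have e00 : -(g 0 1 * c) = g 1 0 := by
    have := congrFun (congrFun h3 0) 0
    simpa [Matrix.mul_apply, Fin.sum_univ_two, Matrix.scalar_apply, Matrix.diagonal] using this
  have e01 : g 0 0 * c = g 1 1 := by
    have := congrFun (congrFun h3 0) 1
    simpa [Matrix.mul_apply, Fin.sum_univ_two, Matrix.scalar_apply, Matrix.diagonal] using this
  have e10 : g 1 1 * c = g 0 0 := by
    have := congrFun (congrFun h3 1) 0
    simpa [Matrix.mul_apply, Fin.sum_univ_two, Matrix.scalar_apply, Matrix.diagonal] using this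
  have e11 : g 1 0 * c = - g 0 1 := by
    have := congrFun (congrFun h3 1) 1
    simpa [Matrix.mul_apply, Fin.sum_univ_two, Matrix.scalar_apply, Matrix.diagonal] using this
  have hdet : g 0 0 * g 1 1 - g 0 1 * g 1 0 ≠ 0 := by
    have h4 : IsUnit (Matrix.det (g : Matrix (Fin 2) (Fin 2) K)) := (Matrix.isUnit_iff_isUnit_det _).1 g.isUnit
    rw [det_fin_two] at h4
    exact h4.ne_zero
  have hne : ((g 0 0 : K), (g 0 1 : K)) ≠ 0 := by
    intro h0
    have h5 : g 0 0 = 0 := congrArg Prod.fst h0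
    have h6 : g 0 1 = 0 := congrArg Prod.snd h0
    apply hdet
    rw [h5, h6]; ring
  refine ⟨hne, ?_⟩
  have hc2 : ((c : K) - 1) * (c + 1) = 0 := by
    by_cases h5 : g 0 0 = 0
    · have h6 : g 0 1 ≠ 0 := fun h6 => hne (Prod.ext h5 h6)
      have : g 0 1 * (((c : K) - 1) * (c + 1)) = 0 := by linear_combination (-(c : K)) * e00 - e11
      exact (mul_eq_zero.1 this).resolve_left h6
    · have : g 0 0 * (((c : K) - 1) * (c + 1)) = 0 := by linear_combination (c : K) * e01 + e10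
      exact (mul_eq_zero.1 this).resolve_left h5
  rcases mul_eq_zero.1 hc2 with h5 | h5
  · left
    have h6 : (c : K) = 1 := sub_eq_zero.1 h5
    rw [h6, mul_one] at e00 e01
    exact ⟨e01.symm, e00.symm⟩
  · right
    have h6 : (c : K) = -1 := eq_neg_of_add_eq_zero_left h5
    rw [h6] at e00 e01
    exact ⟨by rw [← e01]; ring, by rw [← e00]; ring⟩

theorem card_cent_pgl : Nat.card (Subgroup.centralizer ({wP K} : Set (ProjGenLinGroup (Fin 2) K))) ≤
    2 * (Fintype.card K + 1) := by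
  classical
  set C := Subgroup.centralizer ({wP K} : Set (ProjGenLinGroup (Fin 2) K)) with hC
  have h1 : Nat.card (C.comap (QuotientGroup.mk' (Subgroup.center (GL (Fin 2) K)))) =
      Nat.card C * Nat.card (Subgroup.center (GL (Fin 2) K)) :=
    Cfsg.Agent.Lib.SolvableNormalP.card_comap_mk (Subgroup.center (GL (Fin 2) K)) C
  have hZ : Nat.card (Subgroup.center (GL (Fin 2) K)) = Fintype.card K - 1 := by
    have hinj : Function.Injective (GeneralLinearGroup.scalar (Fin 2) : Kˣ →* GL (Fin 2) K) := by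
      intro x y hxy
      have h := congrFun (congrFun (congrArg (fun g : GL (Fin 2) K => (g : Matrix (Fin 2) (Fin 2) K)) hxy) 0) 0
      simp only [GeneralLinearGroup.coe_scalar, scalar_apply, diagonal_apply_eq] at h
      exact Units.ext h
    rw [GeneralLinearGroup.center_eq_range_scalar,
      ← Nat.card_congr (MonoidHom.ofInjective hinj).toEquiv, Nat.card_eq_fintype_card, Fintype.card_units]
  let f : (C.comap (QuotientGroup.mk' (Subgroup.center (GL (Fin 2) K)))) → Bool × {x : K × K // x ≠ 0} := fun g =>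
    (decide ((g : GL (Fin 2) K) 1 1 = (g : GL (Fin 2) K) 0 0 ∧ (g : GL (Fin 2) K) 1 0 = - (g : GL (Fin 2) K) 0 1),
      ⟨((g : GL (Fin 2) K) 0 0, (g : GL (Fin 2) K) 0 1), (shape (Subgroup.mem_centralizer_singleton_iff.1 g.2)).1⟩)
  have hf : Function.Injective f := by
    intro g g' hgg
    have s := (shape (Subgroup.mem_centralizer_singleton_iff.1 g.2)).2
    have s' := (shape (Subgroup.mem_centralizer_singleton_iff.1 g'.2)).2
    have h2 := congrArg Prod.fst hgg
    have h3 := congrArg (fun x => (Prod.snd x).1.1) hgg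
    have h4 := congrArg (fun x => (Prod.snd x).1.2) hgg
    change (g : GL (Fin 2) K) 0 0 = (g' : GL (Fin 2) K) 0 0 at h3
    change (g : GL (Fin 2) K) 0 1 = (g' : GL (Fin 2) K) 0 1 at h4
    have h5 : ((g : GL (Fin 2) K) 1 1 = (g : GL (Fin 2) K) 0 0 ∧ (g : GL (Fin 2) K) 1 0 = - (g : GL (Fin 2) K) 0 1) ↔
        ((g' : GL (Fin 2) K) 1 1 = (g' : GL (Fin 2) K) 0 0 ∧ (g' : GL (Fin 2) K) 1 0 = - (g' : GL (Fin 2) K) 0 1) :=
      decide_eq_decide.1 h2
    have h6 : (g : GL (Fin 2) K) 1 1 = (g' : GL (Fin 2) K) 1 1 ∧ (g : GL (Fin 2) K) 1 0 = (g' : GL (Fin 2) K) 1 0 := by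
      by_cases h7 : (g : GL (Fin 2) K) 1 1 = (g : GL (Fin 2) K) 0 0 ∧ (g : GL (Fin 2) K) 1 0 = - (g : GL (Fin 2) K) 0 1
      · have h8 := h5.1 h7
        rw [h7.1, h7.2, h8.1, h8.2, h3, h4]
        exact ⟨rfl, rfl⟩
      · have h8 := s.resolve_left h7
        have h9 := s'.resolve_left fun h9 => h7 (h5.2 h9)
        rw [h8.1, h8.2, h9.1, h9.2, h3, h4]
        exact ⟨rfl, rfl⟩
    apply Subtype.ext
    apply Units.ext
    ext i j
    fin_cases i <;> fin_cases j
    · exact h3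
    · exact h4
    · exact h6.2
    · exact h6.1
  have h2 := Nat.card_le_card_of_injective f hf
  have h3 : Nat.card (Bool × {x : K × K // x ≠ 0}) = 2 * (Fintype.card K ^ 2 - 1) := by
    have h4 : Fintype.card {x : K × K // x ≠ 0} = Fintype.card K ^ 2 - 1 := by
      rw [Fintype.card_subtype_compl (fun x : K × K => x = 0), Fintype.card_prod, Fintype.card_subtype_eq, pow_two]
    rw [Nat.card_prod, Nat.card_eq_fintype_card, Fintype.card_bool, Nat.card_eq_fintype_card, h4]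
  rw [h3, h1, hZ] at h2
  have hq : 1 < Fintype.card K := Fintype.one_lt_card
  obtain ⟨r, hr⟩ : ∃ r, Fintype.card K = r + 1 := ⟨Fintype.card K - 1, by omega⟩
  rw [hr] at h2 hq ⊢
  have h4 : (r + 1) ^ 2 - 1 = (r + 2) * r := by
    rw [Nat.sub_eq_iff_eq_add (Nat.one_le_pow _ _ (by omega))]
    ring
  rw [h4, Nat.add_sub_cancel, ← mul_assoc] at h2
  exact Nat.le_of_mul_le_mul_right h2 (by omega)

theorem wP_sq : orderOf (wP K) = 2 := by
  have : Fact (Nat.Prime 2) := ⟨Nat.prime_two⟩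
  refine orderOf_eq_prime ?_ ?_
  · rw [wP, ← map_pow, ← QuotientGroup.mk_pow]
    have h1 : (QuotientGroup.mk (wS K ^ 2) : ProjectiveSpecialLinearGroup (Fin 2) K) = 1 := by
      rw [QuotientGroup.eq_one_iff, Matrix.SpecialLinearGroup.mem_center_iff]
      refine ⟨-1, by simp, ?_⟩
      ext i j
      have h2 : ((wS K ^ 2 : SpecialLinearGroup (Fin 2) K) : Matrix (Fin 2) (Fin 2) K) = !![0, 1; -1, 0] * !![0, 1; -1, 0] := by
        rw [pow_two]; rfl
      change scalar (Fin 2) (-1 : K) i j = ((wS K ^ 2 : SpecialLinearGroup (Fin 2) K) : Matrix (Fin 2) (Fin 2) K) i j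
      rw [h2]
      fin_cases i <;> fin_cases j <;> simp [Matrix.mul_apply, Fin.sum_univ_two]
    rw [h1, map_one]
  · intro h1
    have h2 : (QuotientGroup.mk (wS K) : ProjectiveSpecialLinearGroup (Fin 2) K) = 1 :=
      ProjectiveSpecialLinearGroup.toPGL_injective (by rw [map_one]; exact h1)
    rw [QuotientGroup.eq_one_iff, Matrix.SpecialLinearGroup.mem_center_iff] at h2
    obtain ⟨r, -, hr⟩ := h2
    have h3 := congrFun (congrFun hr 0) 1
    rw [coe_wS] at h3
    simp at h3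

theorem card_cent_le_of_injective {B C : Type*} [Group B] [Group C] [Finite C] (f : B →* C) (hf : Function.Injective f)
    (s : B) : Nat.card (Subgroup.centralizer ({s} : Set B)) ≤ Nat.card (Subgroup.centralizer ({f s} : Set C)) := by
  refine Nat.card_le_card_of_injective (fun x => (⟨f x, ?_⟩ : Subgroup.centralizer ({f s} : Set C))) ?_
  · have h1 := Subgroup.mem_centralizer_singleton_iff.1 x.2
    rw [Subgroup.mem_centralizer_singleton_iff, ← map_mul, ← map_mul, h1]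
  · intro x y hxy
    exact Subtype.ext (hf (congrArg Subtype.val hxy))

theorem exists_psl : ∃ s : ProjectiveSpecialLinearGroup (Fin 2) K, orderOf s = 2 ∧
    Nat.card (Subgroup.centralizer ({s} : Set (ProjectiveSpecialLinearGroup (Fin 2) K))) ≤ 2 * (Fintype.card K + 1) := by
  have hfin : Finite (ProjGenLinGroup (Fin 2) K) := Quotient.finite _
  refine ⟨QuotientGroup.mk (wS K), ?_, ?_⟩
  · rw [← orderOf_injective _ ProjectiveSpecialLinearGroup.toPGL_injective]
    exact wP_sq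
  · exact (card_cent_le_of_injective _ ProjectiveSpecialLinearGroup.toPGL_injective _).trans card_cent_pgl

end pgl

end Cfsg.Agent.H800.IFx
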