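import Cfsg.Agent.H209.IF.Kill
import Cfsg.Agent.H680.IF.EngA

/-!
# S5719: general lemmas (helper800)

* `not_abel` : `A` is not abelian;
* `cent_bound` : an involution `t ∈ A`: `|C_T(t)|^6 < n |C_A(t)|^6`.
-/

set_option autoImplicit false
set_option linter.unusedSectionVars false

namespace Cfsg.Agent.H800.IFx

open Cfsg Cfsg.Agent.H209.Fxy

section

variable {T : Type*} [Group T] [Finite T] {A : Subgroup T} {Γ : Subgroup (MulAut T)}

/-- **`A` is not abelian** (Burnside). -/
theorem not_abel [IsSimpleGroup T] (hna : ∃ a b : T, a * b ≠ b * a) (h : IF A Γ)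
    (hab : ∀ a ∈ A, ∀ b ∈ A, a * b = b * a) : False := by
  have hA1 : Nat.card A ≠ 1 := by
    intro h1
    exact h.ne_bot (Subgroup.card_eq_one.1 h1)
  obtain ⟨r, hr, hrA⟩ := Nat.exists_prime_and_dvd hA1
  have hfr : Fact r.Prime := ⟨hr⟩
  obtain ⟨R⟩ : Nonempty (Sylow r A) := inferInstance
  -- all `r`-elements of `A` lie in `R`
  have hmem : ∀ x : A, (∃ k : ℕ, x ^ r ^ k = 1) → x ∈ (R : Subgroup A) := by
    rintro x ⟨k, hk⟩
    have hn : (R : Subgroup A).Normal := ⟨fun y hy g => by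
      have : g * y * g⁻¹ = y := by
        apply Subtype.ext
        change (g : T) * y * (g : T)⁻¹ = y
        rw [hab g g.2 y y.2, mul_inv_cancel_right]
      rwa [this]⟩
    have hz : IsPGroup r (Subgroup.zpowers x) := by
      intro y
      obtain ⟨y, hy⟩ := y
      obtain ⟨j, rfl⟩ := Subgroup.mem_zpowers_iff.1 hy
      refine ⟨k, Subtype.ext ?_⟩
      change (x ^ j) ^ r ^ k = 1
      rw [← zpow_natCast, ← zpow_mul, mul_comm, zpow_mul, zpow_natCast, hk, one_zpow]
    have hs : IsPGroup r ((R : Subgroup A) ⊔ Subgroup.zpowers x : Subgroup A) :=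
      R.isPGroup'.to_sup_of_normal_left hz
    have := R.3 hs le_sup_left
    rw [← this]
    exact le_sup_right (a := (R : Subgroup A)) (Subgroup.mem_zpowers x)
  set R' : Subgroup T := (R : Subgroup A).map A.subtype with hR'
  have hR'A : R' ≤ A := by
    rintro _ ⟨y, -, rfl⟩
    exact y.2
  have hmem' : ∀ x ∈ A, (∃ k : ℕ, x ^ r ^ k = 1) → x ∈ R' := by
    rintro x hx ⟨k, hk⟩
    exact ⟨⟨x, hx⟩, hmem ⟨x, hx⟩ ⟨k, Subtype.ext hk⟩, rfl⟩
  have hpow : ∀ x ∈ R', ∃ k : ℕ, x ^ r ^ k = 1 := by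
    rintro _ ⟨y, hy, rfl⟩
    obtain ⟨k, hk⟩ := R.isPGroup' ⟨y, hy⟩
    exact ⟨k, congrArg (fun z : (R : Subgroup A) => ((z : A) : T)) hk⟩
  have hne : R' ≠ ⊥ := by
    intro h1
    rw [hR', Subgroup.map_eq_bot_iff_of_injective _ A.subtype_injective] at h1
    exact R.ne_bot_of_dvd_card hrA h1
  have hnorm : ∀ x : T, (∀ k ∈ R', x * k * x⁻¹ ∈ R') → x ∈ A := fun x hx =>
    Cfsg.Agent.H680.Fxy.IF.norm h hR'A (fun σ hσ k hk => by
      obtain ⟨j, hj⟩ := hpow k hk
      exact hmem' _ ((h.inv σ hσ k).2 (hR'A hk)) ⟨j, by rw [← map_pow, hj, map_one]⟩) hne hx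
  -- `R'` is a Sylow subgroup of `T`
  have hR'p : IsPGroup r R' := R.isPGroup'.map _
  obtain ⟨P, hP⟩ := hR'p.exists_le_sylow
  have hPR : (P : Subgroup T) = R' := by
    by_contra hcon
    have hlt : R' < (P : Subgroup T) := lt_of_le_of_ne hP (Ne.symm hcon)
    -- normalizers grow in `P`
    have h1 : R'.subgroupOf P ≠ ⊤ := by
      rw [Ne, Subgroup.subgroupOf_eq_top]
      exact fun h2 => hlt.not_ge h2
    have hnil : Group.IsNilpotent P := P.isPGroup'.isNilpotent
    have h2 := Group.normalizerCondition_of_isNilpotent (G := P) (R'.subgroupOf P) (lt_top_iff_ne_top.2 h1)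
    obtain ⟨x, hx1, hx2⟩ := SetLike.exists_of_lt h2
    apply hx2
    rw [Subgroup.mem_subgroupOf]
    obtain ⟨j, hj⟩ := P.isPGroup' x
    refine hmem' _ (hnorm _ ?_) ⟨j, congrArg (fun z : P => (z : T)) hj⟩
    intro k hk
    have h3 := (Subgroup.mem_normalizer_iff.1 hx1 ⟨k, hP hk⟩).1 (by rw [Subgroup.mem_subgroupOf]; exact hk)
    exact h3
  -- Burnside
  have hNC : Subgroup.normalizer ((P : Subgroup T) : Set T) ≤ Subgroup.centralizer ((P : Subgroup T) : Set T) := by
    intro x hx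
    have hxA : x ∈ A := hnorm x fun k hk => by
      rw [← hPR] at hk ⊢
      exact (Subgroup.mem_normalizer_iff.1 hx k).1 hk
    rw [Subgroup.mem_centralizer_iff]
    intro y hy
    rw [SetLike.mem_coe, hPR] at hy
    exact hab y (hR'A hy) x hxA
  have hcomp := MonoidHom.ker_transferSylow_isComplement' P hNC
  have hcard := hcomp.card_mul_card
  have hPne : Nat.card P ≠ 1 := by
    intro h1
    apply hne
    rw [← hPR]
    exact Subgroup.card_eq_one.1 h1
  rcases (inferInstance : (MonoidHom.transferSylow P hNC).ker.Normal).eq_bot_or_eq_top with h1 | h1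
  · rw [h1, Subgroup.card_bot, one_mul] at hcard
    have h2 : (P : Subgroup T) = ⊤ := Subgroup.eq_top_of_card_eq _ hcard
    obtain ⟨a, b, hab'⟩ := hna
    apply hab'
    have h3 : ∀ x : T, x ∈ A := fun x => hR'A (by rw [← hPR, h2]; exact Subgroup.mem_top x)
    exact hab a (h3 a) b (h3 b)
  · rw [h1, Subgroup.card_top] at hcard
    have h2 : 0 < Nat.card T := Nat.card_pos
    exact hPne (Nat.eq_of_mul_eq_mul_left h2 (by rw [hcard, mul_one]))

/-- an involution `t` of `A`: `|C_T(t)|^6 < n |C_A(t)|^6` -/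
theorem cent_bound (hconj : ∀ t : T, orderOf (MulAut.conj t) = orderOf t) (h : IF A Γ) {t : T} (ht : t ∈ A)
    (h2 : orderOf t = 2) :
    Nat.card (Subgroup.centralizer ({t} : Set T)) ^ 6 <
      A.index * Nat.card (A ⊓ Subgroup.centralizer ({t} : Set T) : Subgroup T) ^ 6 := by
  refine Cfsg.Agent.H680.Fxy.IF.semireg h (σ := MulAut.conj t) ((h.conj t).2 ht) (by rw [hconj, h2]) ?_
  intro b hb
  rw [Subgroup.mem_centralizer_singleton_iff] at hb
  rw [MulAut.conj_apply, ← hb, mul_inv_cancel_right]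

/-- the centralizer in `A`, by an isomorphism with a known group -/
theorem card_cent_equiv {B : Type*} [Group B] (e : A ≃* B) {t : T} (ht : t ∈ A) :
    Nat.card (A ⊓ Subgroup.centralizer ({t} : Set T) : Subgroup T) =
      Nat.card (Subgroup.centralizer ({e ⟨t, ht⟩} : Set B)) := by
  refine Nat.card_congr ⟨fun x => ⟨e ⟨x, x.2.1⟩, ?_⟩, fun y => ⟨(e.symm y : A), (e.symm y).2, ?_⟩, ?_, ?_⟩
  · have h1 := Subgroup.mem_centralizer_singleton_iff.1 x.2.2
    rw [Subgroup.mem_centralizer_singleton_iff, ← map_mul, ← map_mul]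
    congr 1
    exact Subtype.ext h1
  · have h1 := Subgroup.mem_centralizer_singleton_iff.1 y.2
    refine Subgroup.mem_centralizer_singleton_iff.2 ?_
    have h2 : e.symm y * (⟨t, ht⟩ : A) = (⟨t, ht⟩ : A) * e.symm y := by
      apply e.injective
      rw [map_mul, map_mul, e.apply_symm_apply]
      exact h1
    exact congrArg Subtype.val h2
  · intro x
    apply Subtype.ext
    simp
  · intro y
    apply Subtype.ext
    simp

end

end Cfsg.Agent.H800.IFx
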